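import Cfsg.Agent.PERM.OT.Bas
import Cfsg.Agent.SOLV.FrobeniusNil
import Cfsg.Agent.SOLV.CoprimeGen
import Cfsg.Agent.TECH.Amb

/-! O'Nan TI theorem, solvable half: reduction to `N = F U` with `|U| = r` prime. -/

set_option autoImplicit false
set_option linter.unusedSectionVars false

namespace CL.OT

open Cfsg Subgroup CL.MSS CL.CT CL.CT.Y MulAction
open scoped commutatorElement

variable {G X : Type*} [Group G] [MulAction G X]

/-- the solvable configuration -/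
structure Sv (r : ℕ) (N F : X → Subgroup G) : Prop extends Pre N where
  pr : r.Prime
  FN : ∀ x, F x ≤ N x
  cjF : ∀ (g : G) x, g •ᶜ F x = F (g • x)
  semi : ∀ {x y : X} {f : G}, f ∈ F x → y ≠ x → f • y = y → f = 1
  nil : ∀ x, Group.IsNilpotent (F x)
  Fne : ∀ x, F x ≠ ⊥
  cop : ∀ x, (Nat.card (F x)).Coprime r
  cA : ∀ {x y : X}, x ≠ y → Nat.card (A N x y) = r
  dec : ∀ {x y : X} {n : G}, x ≠ y → n ∈ N x → ∃ f ∈ F x, ∃ u ∈ A N x y, n = f * u

/-- a fixed-point-free element is conjugate to every element of its coset -/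
theorem comm_surj [Finite G] {M : Subgroup G} {a : G} (ha : a ∈ nz M)
    (h : ∀ m ∈ M, m * a = a * m → m = 1) {f : G} (hf : f ∈ M) :
    ∃ c ∈ M, c * a * c⁻¹ = f * a := by
  let φ : M → M := fun c => ⟨c * a * (c : G)⁻¹ * a⁻¹, cl ha c.2⟩
  have : Function.Injective φ := fun c d e => by
    have e' : (c : G) * a * (c : G)⁻¹ = d * a * (d : G)⁻¹ := mul_right_cancel (congrArg Subtype.val e)
    have := h ((d : G)⁻¹ * c) (mul_mem (inv_mem d.2) c.2) (by
      calc (d : G)⁻¹ * c * a = (d : G)⁻¹ * (c * a * (c : G)⁻¹) * c := by group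
        _ = _ := by rw [e']; group)
    exact Subtype.ext (inv_mul_eq_one.1 this).symm
  obtain ⟨c, hc⟩ := Finite.surjective_of_injective this ⟨f, hf⟩
  exact ⟨c, c.2, mul_inv_eq_iff_eq_mul.1 (congrArg Subtype.val hc)⟩

theorem mem_zpowers_of_card {U : Subgroup G} {r : ℕ} (hr : r.Prime) (hU : Nat.card U = r) {u v : G}
    (hu : u ∈ U) (h1 : u ≠ 1) (hv : v ∈ U) : v ∈ zpowers u := by
  have : Fact r.Prime := ⟨hr⟩
  have := mem_zpowers_of_prime_card hU (g := (⟨u, hu⟩ : U)) (g' := ⟨v, hv⟩)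
    (fun e => h1 (congrArg Subtype.val e))
  obtain ⟨k, hk⟩ := this
  exact ⟨k, congrArg Subtype.val hk⟩

theorem pow_mem_comm {M : Subgroup G} {a b : G} (ha : a ∈ M) (hb : b ∈ M) {r : ℕ}
    (h1 : a ^ r ∈ ⁅M, M⁆) (h2 : b ^ r ∈ ⁅M, M⁆) : (a * b) ^ r ∈ ⁅M, M⁆ := by
  have key : ∀ c : M, (c : G) ∈ ⁅M, M⁆ ↔ Abelianization.of c = 1 := fun c => by
    rw [← map_subtype_commutator, ← MonoidHom.mem_ker, Abelianization.ker_of]
    exact ⟨fun ⟨d, hd, e⟩ => (Subtype.ext e : d = c) ▸ hd, fun hc => ⟨c, hc, rfl⟩⟩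
  have e1 := (key (⟨a, ha⟩ ^ r)).1 h1
  have e2 := (key (⟨b, hb⟩ ^ r)).1 h2
  refine (key ((⟨a, ha⟩ * ⟨b, hb⟩) ^ r)).2 ?_
  rw [map_pow] at e1 e2 ⊢
  rw [map_mul, mul_pow, e1, e2, one_mul]

namespace Fam

variable [Finite G] {N : X → Subgroup G} (h : Fam N) {x y : X}
include h

theorem D_nz (x : X) : stabilizer G x ≤ nz ⁅N x, N x⁆ :=
  le_normalizer_commutator (h.stab_nz x) (h.stab_nz x)

theorem D_ne (x : X) : ⁅N x, N x⁆ ≠ ⊥ := fun e =>
  h.nab x (commutator_eq_bot_iff_le_centralizer.1 e)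

theorem sv (hxy : x ≠ y) (hs : Group.IsSolvable (N x)) :
    ∃ r, Sv r N fun x => ⁅N x, N x⁆ := by
  have hsol : ∀ z, Group.IsSolvable (N z) := fun z => by
    obtain ⟨g, rfl⟩ : ∃ g : G, g • x = z := by
      by_cases hz : z = x
      · exact ⟨1, by rw [hz, one_smul]⟩
      · obtain ⟨g, hg, -⟩ := h.two hxy hz; exact ⟨g, hg⟩
    rw [← h.cj]
    exact CL.isSolvable_of_mulEquiv (cjEquiv g (N x))
  have hle : ∀ z, ⁅N z, N z⁆ ≤ N z := fun z => commutator_le_right_of_normalizes le_normalizer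
  have hne : ∀ z, ⁅N z, N z⁆ ≠ N z := fun z e => by
    have := hsol z
    have h1 : N z ≠ ⊥ := fun e' => h.D_ne z (e.trans e')
    have : Nontrivial (N z) := (nontrivial_iff_ne_bot _).2 h1
    have h2 := Group.IsSolvable.commutator_lt_top_of_nontrivial (N z)
    refine h2.ne (map_injective (N z).subtype_injective ?_)
    rw [map_subtype_commutator, e, ← MonoidHom.range_eq_map, range_subtype]
  have semi : ∀ {z w : X} {f : G}, f ∈ ⁅N z, N z⁆ → w ≠ z → f • w = w → f = 1 :=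
    fun {z w f} hf hw e => mem_bot.1 (h.min z _ (hle z) (h.D_nz z) (hne z) w hw ▸ ⟨hf, e⟩)
  have fpf : ∀ {z w : X} {b f : G}, z ≠ w → b ∈ N w → b ≠ 1 → f ∈ ⁅N z, N z⁆ → f * b = b * f →
      f = 1 := fun {z w b f} hzw hb b1 hf e => h.fpf hzw (hle z) (h.D_nz z) (hne z) hb b1 hf e
  obtain ⟨a, ha, a1⟩ := h.exists_A hxy
  obtain ⟨r, hr, hra⟩ := Nat.exists_prime_and_dvd (mt orderOf_eq_one_iff.1 a1)
  have : Fact r.Prime := ⟨hr⟩
  have exu : ∀ {z w : X}, z ≠ w → ∃ u ∈ A N z w, orderOf u = r := fun {z w} hzw => by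
    obtain ⟨u, hu⟩ := exists_prime_orderOf_dvd_card' (G := A N z w) r
      (h.card_A hxy hzw ▸ hra.trans (orderOf_dvd_natCard _ ha))
    exact ⟨u, u.2, (orderOf_coe u).trans hu⟩
  have ne1 : ∀ {u : G}, orderOf u = r → u ≠ 1 := fun hu e => hr.ne_one (by rw [← hu, e, orderOf_one])
  have hpow : ∀ {z w : X}, z ≠ w → ∀ n ∈ N z, n ^ r ∈ ⁅N z, N z⁆ := fun {z w} hzw n hn => by
    let R : Subgroup G :=
      { carrier := {n | n ∈ N z ∧ n ^ r ∈ ⁅N z, N z⁆}
        mul_mem' := fun ha hb => ⟨mul_mem ha.1 hb.1, pow_mem_comm ha.1 hb.1 ha.2 hb.2⟩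
        one_mem' := ⟨one_mem _, by rw [one_pow]; exact one_mem _⟩
        inv_mem' := fun ha => ⟨inv_mem ha.1, by rw [inv_pow]; exact inv_mem ha.2⟩ }
    obtain ⟨u, hu, hur⟩ := exu hzw
    have := h.eq_N (M := R) hzw (fun _ h => h.1) (fun g hg => nz_of fun n hn =>
      ⟨cm (h.stab_nz z hg) hn.1, by rw [conj_pow]; exact cm (h.D_nz z hg) hn.2⟩)
      (a := u) ⟨hu.1, by rw [← hur, pow_orderOf_eq_one]; exact one_mem _⟩ hu.2 (ne1 hur)
    exact (this.ge hn).2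
  have Apow : ∀ {z w : X}, z ≠ w → ∀ n ∈ A N z w, n ^ r = 1 := fun {z w} hzw n hn =>
    semi (hpow hzw n hn.1) hzw.symm (pow_mem hn r).2
  have Ap : ∀ {z w : X}, z ≠ w → IsPGroup r (A N z w) := fun hzw =>
    isPGroup_iff_forall_mem.2 fun n hn => ⟨1, by rw [pow_one, Apow hzw n hn]⟩
  have Aab : ∀ {z w : X}, z ≠ w → ∀ a ∈ A N z w, ∀ b ∈ A N z w, a * b = b * a :=
    fun {z w} hzw a ha b hb => commutatorElement_eq_one_iff_mul_comm.1
      (semi (commutator_mem_commutator ha.1 hb.1) hzw.symm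
        (mul_mem (mul_mem (mul_mem ha hb) (inv_mem ha)) (inv_mem hb)).2)
  have exw : ∀ z : X, ∃ w, z ≠ w := fun z => by
    by_cases hz : z = x
    · exact ⟨y, hz ▸ hxy⟩
    · exact ⟨x, hz⟩
  have Anz : ∀ {z w : X}, A N w z ≤ nz ⁅N z, N z⁆ := fun {z w} => inf_le_right.trans (h.D_nz z)
  have cop : ∀ z, (Nat.card (⁅N z, N z⁆ : Subgroup G)).Coprime r := fun z => by
    obtain ⟨w, hzw⟩ := exw z
    rw [Nat.coprime_comm, hr.coprime_iff_not_dvd]
    intro hd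
    obtain ⟨P, hP, hKP⟩ := exists_sylIn_ge (Ap hzw.symm) (le_sup_right (a := ⁅N z, N z⁆))
    have hn : ⁅N z, N z⁆ ⊔ A N w z ≤ nz ⁅N z, N z⁆ := sup_le le_normalizer Anz
    have h1 := hP.inf_normal_of_le hn le_sup_left
    have h2 := inf_centralizer_ne_bot hP.pgroup h1.pgroup
      (le_normalizer_inf le_normalizer (hP.le.trans hn)) (h1.ne_bot hd)
    obtain ⟨k, hk, hkr⟩ := exu hzw.symm
    refine h2 (eq_bot_iff.2 fun f hf => mem_bot.2 ?_)
    exact fpf hzw hk.1 (ne1 hkr) hf.1.2 (hf.2 k (hKP hk)).symm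
  have copP : ∀ {P : Subgroup G} (z : X), IsPGroup r P →
      (Nat.card P).Coprime (Nat.card (⁅N z, N z⁆ : Subgroup G)) := fun {P} z hP => by
    obtain ⟨k, hk⟩ := IsPGroup.iff_card.1 hP
    rw [hk]; exact (cop z).symm.pow_left k
  have cA : ∀ {z w : X}, z ≠ w → Nat.card (A N z w) = r := fun {w z} hwz => by
    have : IsMulCommutative (A N w z) := ⟨⟨fun a b => Subtype.ext (Aab hwz a a.2 b b.2)⟩⟩
    have hc : IsCyclic (A N w z) := by
      by_contra hc
      exact h.D_ne z (eq_bot_iff.2 (coprime_le_of_forall_centralizer_le (A N w z) _ ⊥ hc Anz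
        (copP z (Ap hwz)) fun a ha a1 f hf =>
          mem_bot.2 (fpf hwz.symm ha.1 a1 hf.1 (mem_centralizer_singleton_iff.1 hf.2))))
    obtain ⟨u, hu, hur⟩ := exu hwz
    obtain ⟨g, hg⟩ := hc.exists_ofOrder_eq_natCard
    refine Nat.dvd_antisymm ?_ (hur ▸ orderOf_dvd_natCard _ hu)
    rw [← hg]
    exact orderOf_dvd_of_pow_eq_one (Subtype.ext (Apow hwz g g.2))
  refine ⟨r, h.toPre, hr, hle, fun g z => by rw [cj_commutator, h.cj], semi, fun z => ?_, h.D_ne,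
    cop, cA, fun {z w n} hzw hn => ?_⟩
  · obtain ⟨w, hzw⟩ := exw z
    exact CL.Frob.isNilpotent_of_fpf Anz (h.ns hzw.symm) fun k hk k1 => eq_bot_iff.2 fun f hf =>
      mem_bot.2 (fpf hzw hk.1 k1 hf.1 (mem_centralizer_singleton_iff.1 hf.2))
  set H := A N z w
  set K := A N w z
  have hKN : K ≤ nz (N z) := inf_le_right.trans (h.stab_nz z)
  have hKH : K ≤ nz H := (h.A_cz hzw.symm).trans (centralizer_le_normalizer _)
  have hE : IsPGroup r (H ⊔ K : Subgroup G) := isPGroup_sup_of_normalizes' (Ap hzw) (Ap hzw.symm) hKH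
  obtain ⟨P, hP, hEP⟩ := exists_sylIn_ge hE (sup_le_sup_right (inf_le_left : H ≤ N z) K)
  have hn' : N z ⊔ K ≤ nz (N z) := sup_le le_normalizer hKN
  have hR := hP.inf_normal_of_le hn' le_sup_left
  by_cases hRH : P ⊓ N z ≤ H
  · have := le_of_oU_le_of_sylIn_le (K := ⁅N z, N z⁆ ⊔ H) hR
      ((oU_le_of_pow fun n hn => ⟨1, by rw [pow_one]; exact hpow hzw n hn⟩).trans le_sup_left)
      (hRH.trans le_sup_right) hn
    obtain ⟨f, hf, u, hu, e⟩ := (mem_sup_of_normalizes_left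
      (inf_le_left.trans ((h.le z).trans (h.D_nz z)))).1 this
    exact ⟨f, hf, u, hu, e.symm⟩
  exfalso
  obtain ⟨k₀, hk₀, hk₀r⟩ := exu hzw.symm
  -- `H` is central in `P`
  have hHP : ∀ u ∈ H, ∀ g ∈ P, g * u = u * g := by
    obtain ⟨⟨c, hc⟩, c1⟩ := ne_bot_iff_exists_ne_one.1 (inf_centralizer_ne_bot hP.pgroup hR.pgroup
      (le_normalizer_inf le_normalizer (hP.le.trans hn'))
      fun e => hRH (e ▸ bot_le))
    have c1' : c ≠ 1 := fun e => c1 (Subtype.ext e)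
    have hcH : c ∈ H := h.mem_A hk₀.1 (ne1 hk₀r) hc.1.2 (hc.2 k₀ (hEP (mem_sup_right hk₀))).symm
    intro u hu g hg
    obtain ⟨j, rfl⟩ := mem_zpowers_of_card hr (cA hzw) hcH c1' hu
    exact ((show Commute g c from hc.2 g hg).zpow_right j).eq
  have hlt : H ⊔ K < P := lt_of_le_of_ne hEP fun e => hRH fun g hg => by
    obtain ⟨u, hu, k, hk, rfl⟩ := (mem_sup_of_normalizes_left hKH).1 (e ▸ hg.1 : g ∈ H ⊔ K)
    rw [h.eq_one hzw (((N z).mul_mem_cancel_left hu.1).1 hg.2) hk.1, mul_one]; exact hu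
  obtain ⟨w', hw', hw'E⟩ := SetLike.exists_of_lt (lt_inf_normalizer_of_lt hP.pgroup hlt)
  obtain ⟨v, hv, k', hk', rfl⟩ := (mem_sup_of_normalizes_left hKN).1 (hP.le hw'.1)
  have hvP : v ∈ P := (P.mul_mem_cancel_right (hEP (mem_sup_right hk'))).1 hw'.1
  have hvE : v ∈ nz (H ⊔ K) := ((nz (H ⊔ K)).mul_mem_cancel_right (le_normalizer (mem_sup_right hk'))).1 hw'.2
  have hvH : v ∉ H := fun e => hw'E (mul_mem (mem_sup_left e) (mem_sup_right hk'))
  have hcj : ∀ k ∈ K, k ≠ 1 → ∀ u ∈ H, ∃ n ∈ N z, n * k * n⁻¹ = u * k := by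
    intro k hk k1 u hu
    obtain ⟨u₁, hu₁, k₁, hk₁, e⟩ := (mem_sup_of_normalizes_left hKH).1 (cm hvE (mem_sup_right hk))
    have e1 : k₁ * k⁻¹ = 1 := h.eq_one hzw (by
      have := cl (hKN hk) hv
      rw [← e, mul_assoc] at this
      exact ((N z).mul_mem_cancel_left hu₁.1).1 this) (mul_mem hk₁.1 (inv_mem hk.1))
    rw [mul_inv_eq_one.1 e1] at e
    have u1 : u₁ ≠ 1 := fun e' => hvH (h.mem_A hk.1 k1 hv (by
      rw [e', one_mul] at e; exact mul_inv_eq_iff_eq_mul.1 e.symm))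
    obtain ⟨j, rfl⟩ := (mem_powers_iff_mem_zpowers).2 (mem_zpowers_of_card hr (cA hzw) hu₁ u1 hu)
    refine ⟨v ^ j, pow_mem hv j, ?_⟩
    induction j with
    | zero => simp
    | succ j ih =>
      have := ih (pow_mem hu₁ j)
      simp only at this ⊢
      calc v ^ (j + 1) * k * (v ^ (j + 1))⁻¹ = v * (v ^ j * k * (v ^ j)⁻¹) * v⁻¹ := by group
        _ = (v * u₁ ^ j) * k * v⁻¹ := by rw [this]; group
        _ = u₁ ^ j * (v * k * v⁻¹) := by rw [hHP _ (pow_mem hu₁ j) v hvP]; group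
        _ = _ := by rw [← e]; group
  have : IsMulCommutative (H ⊔ K : Subgroup G) := ⟨⟨fun a b => Subtype.ext (by
    obtain ⟨u, hu, k, hk, e⟩ := (mem_sup_of_normalizes_left hKH).1 a.2
    obtain ⟨u', hu', k', hk', e'⟩ := (mem_sup_of_normalizes_left hKH).1 b.2
    rw [coe_mul, coe_mul, ← e, ← e']
    exact (((show Commute u u' from Aab hzw u hu u' hu').mul_left
      (show Commute k u' from (h.comm hzw hu' hk).symm)).mul_right
      ((show Commute u k' from h.comm hzw hu hk').mul_left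
        (show Commute k k' from Aab hzw.symm k hk k' hk'))).eq)⟩⟩
  have hnc : ¬ IsCyclic (H ⊔ K : Subgroup G) := fun hc => by
    obtain ⟨g, hg⟩ := hc.exists_ofOrder_eq_natCard
    obtain ⟨u, hu, k, hk, e⟩ := (mem_sup_of_normalizes_left hKH).1 g.2
    have h1 : Nat.card (H ⊔ K : Subgroup G) ∣ r := by
      rw [← hg]
      refine orderOf_dvd_of_pow_eq_one (Subtype.ext ?_)
      rw [SubgroupClass.coe_pow, ← e, (show Commute u k from h.comm hzw hu hk).mul_pow,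
        Apow hzw u hu, Apow hzw.symm k hk, one_mul]; rfl
    have h2 : H = H ⊔ K := eq_of_le_of_card_ge le_sup_left
      ((Nat.le_of_dvd hr.pos h1).trans (cA hzw).ge)
    exact ne1 hk₀r (h.eq_one hzw (h2.ge (mem_sup_right hk₀)).1 hk₀.1)
  have hFH : ⁅N z, N z⁆ ≤ cz H := coprime_le_of_forall_centralizer_le (H ⊔ K) _ _ hnc
    (sup_le (inf_le_left.trans ((h.le z).trans (h.D_nz z))) Anz) (copP z hE) fun e he e1 f hf => by
      obtain ⟨u, hu, k, hk, rfl⟩ := (mem_sup_of_normalizes_left hKH).1 he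
      have hfe := mem_centralizer_singleton_iff.1 hf.2
      by_cases k1 : k = 1
      · rw [k1, mul_one] at e1 hfe
        intro u' hu'
        obtain ⟨j, rfl⟩ := mem_zpowers_of_card hr (cA hzw) hu e1 hu'
        exact ((show Commute f u from hfe).zpow_right j).eq.symm
      · obtain ⟨n, hn, e⟩ := hcj k hk k1 u hu
        rw [fpf (w := n • w) (fun e' => hzw (MulAction.injective n ((h.fix hn).trans e')))
          (e ▸ h.conj_mem n hk.1) e1 hf.1 hfe]
        exact one_mem _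
  obtain ⟨u, hu, hur⟩ := exu hzw
  have hNF := h.eq_N (M := N z ⊓ cz ⁅N z, N z⁆) hzw inf_le_left
    (le_normalizer_inf (h.stab_nz z) (le_normalizer_centralizer (h.D_nz z)))
    (a := u) ⟨hu.1, le_centralizer_iff.1 hFH hu⟩ hu.2 (ne1 hur)
  refine h.nab z fun a ha b hb => ?_
  have hz : ∀ c ∈ ⁅N z, N z⁆, ∀ d ∈ N z, Commute c d := fun c hc d hd => (hNF.ge hd).2 c hc
  have hab := commutator_mem_commutator hb ha
  have key : ∀ j : ℕ, b ^ j * a * (b ^ j)⁻¹ = ⁅b, a⁆ ^ j * a := fun j => by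
    induction j with
    | zero => simp
    | succ j ih =>
      calc b ^ (j + 1) * a * (b ^ (j + 1))⁻¹ = b * (b ^ j * a * (b ^ j)⁻¹) * b⁻¹ := by group
        _ = (b * ⁅b, a⁆ ^ j) * a * b⁻¹ := by rw [ih]; group
        _ = ⁅b, a⁆ ^ j * (b * a * b⁻¹) := by rw [← ((hz _ hab b hb).pow_left j).eq]; group
        _ = _ := by rw [pow_succ, commutatorElement_def]; group
  have h1 : ⁅b, a⁆ ^ r = 1 := by
    have := key r
    rw [(hz _ (hpow hzw b hb) a ha).eq, mul_inv_cancel_right] at this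
    exact (right_eq_mul.1 this)
  refine commutatorElement_eq_one_iff_mul_comm.1 (orderOf_eq_one_iff.1 ?_)
  exact Nat.eq_one_of_dvd_coprimes (cop z) (orderOf_dvd_natCard _ hab) (orderOf_dvd_of_pow_eq_one h1)

end Fam

end CL.OT
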