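import Cfsg.Agent.PERM.OT.SA
import Cfsg.Agent.FGS.SemiReg

/-! O'Nan TI theorem, solvable half: the lines `Fix(N_y^x)` and centralisers of subgroups fixing a
line pointwise. -/

set_option autoImplicit false
set_option linter.unusedSectionVars false

namespace CL.OT

open Cfsg Subgroup CL.MSS CL.CT CL.CT.Y MulAction

variable {G X : Type*} [Group G] [MulAction G X]

/-- the line through `x` and `y` -/
def Ln (N : X → Subgroup G) (x y : X) : Set X := {z | ∀ u ∈ A N x y, u • z = z}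

/-- the common fixed points of `W` -/
def Fx (X : Type*) [MulAction G X] (W : Subgroup G) : Set X := {z | ∀ w ∈ W, w • z = z}

namespace Sv

variable [Finite G] {r : ℕ} {N F : X → Subgroup G} (h : Sv r N F) {x y z z' v : X} {f k u w g : G}
include h

theorem F_nz (hg : g • x = x) : g ∈ nz (F x) := mem_normalizer_iff_cj.2 (by rw [h.cjF, hg])

theorem F_fix (hf : f ∈ F x) : f • x = x := h.fix (h.FN x hf)

theorem F_conj (g : G) (hf : f ∈ F x) : g * f * g⁻¹ ∈ F (g • x) := h.cjF g x ▸ conj_mem_cj hf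

theorem comm_of_fix (hw : w • x = x) (hf : f ∈ F x) (hz : z ≠ x) (h1 : w • z = z)
    (h2 : w • f • z = f • z) : f * w = w * f := by
  have := h.semi (mul_mem (inv_mem hf) (cm (h.F_nz hw) hf)) hz (by
    rw [mul_smul, mul_smul, mul_smul, inv_smul_eq_iff.2 h1.symm, h2, inv_smul_smul])
  rw [inv_mul_eq_one, eq_mul_inv_iff_mul_eq] at this
  exact this

theorem fixF (hxy : x ≠ y) (hk : k ∈ A N y x) (k1 : k ≠ 1) (hf : f ∈ F x) (hz : z ≠ x)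
    (h1 : k • z = z) (h2 : k • f • z = f • z) : f = 1 :=
  h.semi hf hxy.symm (h.mem_A hk.1 k1 (h.FN x hf) (h.comm_of_fix hk.2 hf hz h1 h2)).2

theorem fix_swap (hxy : x ≠ y) (hk : k ∈ A N y x) (k1 : k ≠ 1) (h1 : k • z = z) : z ∈ Ln N x y := by
  intro u hu
  by_cases hz : z = x
  · rw [hz]; exact h.fix hu.1
  obtain ⟨f, hf, u', hu', rfl⟩ := h.dec (Ne.symm hz) hu.1
  have e : (f * u') • z = f • z := by rw [mul_smul, mem_stabilizer_iff.1 hu'.2]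
  rw [e, h.fixF hxy hk k1 hf hz h1 (e ▸ fix_comm h1 (h.comm hxy hu hk)), one_smul]

theorem Ln_symm (hxy : x ≠ y) : Ln N x y = Ln N y x := by
  have : ∀ {x y : X}, x ≠ y → Ln N y x ⊆ Ln N x y := fun hxy z hz => by
    obtain ⟨k, hk, k1⟩ := h.exists_A hxy.symm
    exact h.fix_swap hxy hk k1 (hz k hk)
  exact (this hxy.symm).antisymm (this hxy)

theorem mem_Ln (hxy : x ≠ y) (hu : u ∈ A N x y) (u1 : u ≠ 1) (h1 : u • z = z) : z ∈ Ln N x y :=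
  h.Ln_symm hxy ▸ h.fix_swap hxy.symm hu u1 h1

theorem left_mem (x y : X) : x ∈ Ln N x y := fun _ hu => h.fix hu.1

omit h in
theorem right_mem (x y : X) : y ∈ Ln N x y := fun _ hu => hu.2

theorem uniq (hxy : x ≠ y) (hf : f ∈ F x) (hz : z ∈ Ln N x y) (hzx : z ≠ x)
    (hz' : f • z ∈ Ln N x y) : f = 1 := by
  obtain ⟨k, hk, k1⟩ := h.exists_A hxy.symm
  rw [h.Ln_symm hxy] at hz hz'
  exact h.fixF hxy hk k1 hf hzx (hz k hk) (hz' k hk)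

theorem cF (hxy : x ≠ y) (hu : u ∈ A N x y) (u1 : u ≠ 1) (hf : f ∈ F x) (hc : f * u = u * f) :
    f = 1 :=
  h.uniq hxy hf (right_mem x y) hxy.symm (h.mem_Ln hxy hu u1 (fix_comm hu.2 hc))

theorem orb (hxy : x ≠ y) (hz : z ≠ x) : ∃ f ∈ F x, ∃ z' ∈ Ln N x y, z' ≠ x ∧ z = f • z' := by
  obtain ⟨a, ha, a1⟩ := h.exists_A hxy
  obtain ⟨f, hf, u, hu, rfl⟩ := h.dec hz.symm ha.1
  have u1 : u ≠ 1 := fun e => a1 (by
    rw [e, mul_one] at ha ⊢; exact h.semi hf hxy.symm ha.2)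
  obtain ⟨c, hc, e⟩ := comm_surj (h.F_nz (h.fix hu.1)) (fun m hm => h.cF hz.symm hu u1 hm) hf
  refine ⟨c⁻¹, inv_mem hc, c • z, h.mem_Ln hxy ha a1 (e ▸ fix_conj hu.2 c), fun e => hz ?_,
    (inv_smul_smul c z).symm⟩
  exact MulAction.injective c (e.trans (h.F_fix hc).symm)

theorem A_eq (hxy : x ≠ y) (hz : z ∈ Ln N x y) (hzx : z ≠ x) : A N x y = A N x z :=
  eq_of_le_of_card_ge (fun u hu => ⟨hu.1, hz u hu⟩) (by rw [h.cA hxy, h.cA hzx.symm])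

theorem Ln_eq (hxy : x ≠ y) (hz : z ∈ Ln N x y) (hv : v ∈ Ln N x y) (hzv : z ≠ v) :
    Ln N z v = Ln N x y := by
  have A1 : ∀ {x y z : X}, x ≠ y → z ∈ Ln N x y → z ≠ x → Ln N x z = Ln N x y :=
    fun hxy hz hzx => by rw [Ln, ← h.A_eq hxy hz hzx]; rfl
  by_cases hzx : z = x
  · subst hzx; exact A1 hxy hv hzv.symm
  · have e := (h.Ln_symm hzx).trans (A1 hxy hz hzx)
    rw [A1 hzx (e ▸ hv) hzv.symm, e]

theorem Ln_smul (g : G) (hz : z ∈ Ln N x y) : g • z ∈ Ln N (g • x) (g • y) := fun u hu => by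
  rw [← h.cj_A] at hu
  obtain ⟨a, ha, rfl⟩ := mem_cj'.1 hu
  exact fix_conj (hz a ha) g

theorem Ln_card (hxy : x ≠ y) (hzv : z ≠ v) : (Ln N x y).ncard = (Ln N z v).ncard := by
  obtain ⟨g, rfl, rfl⟩ := h.two hxy hzv
  refine Set.ncard_congr (fun a _ => g • a) (fun a ha => h.Ln_smul g ha)
    (fun a b _ _ e => MulAction.injective g e) fun b hb => ⟨g⁻¹ • b, ?_, smul_inv_smul g b⟩
  simpa using h.Ln_smul g⁻¹ hb

variable [Finite X] {W : Subgroup G}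

theorem orbW (hxy : x ≠ y) (hW : Ln N x y ⊆ Fx X W) (hz : z ∈ Fx X W) (hzx : z ≠ x) :
    ∃ f ∈ F x ⊓ cz W, ∃ z' ∈ Ln N x y, z' ≠ x ∧ z = f • z' := by
  obtain ⟨f, hf, z', hz', hx, rfl⟩ := h.orb hxy hzx
  exact ⟨f, ⟨hf, fun w hw => (h.comm_of_fix (hW (h.left_mem x y) w hw) hf hx (hW hz' w hw)
    (hz w hw)).symm⟩, z', hz', hx, rfl⟩

omit h in
theorem Fx_smul (hg : g ∈ cz W) (hz : z ∈ Fx X W) : g • z ∈ Fx X W := fun w hw =>
  fix_comm (hz w hw) (hg w hw).symm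

theorem card_Fx (hxy : x ≠ y) (hW : Ln N x y ⊆ Fx X W) :
    (Fx X W).ncard - 1 = ((Ln N x y).ncard - 1) * Nat.card (F x ⊓ cz W : Subgroup G) := by
  rw [← Set.ncard_sdiff_singleton_of_mem (hW (h.left_mem x y)),
    ← Set.ncard_sdiff_singleton_of_mem (h.left_mem x y), ← Nat.card_coe_set_eq,
    ← Nat.card_coe_set_eq, ← Nat.card_prod]
  symm
  refine Nat.card_congr (Equiv.ofBijective (fun p => ⟨p.2.1 • p.1.1, Fx_smul p.2.2.2 (hW p.1.2.1),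
    fun e => p.1.2.2 (MulAction.injective _ (e.trans (h.F_fix p.2.2.1).symm))⟩) ⟨?_, ?_⟩)
  · rintro ⟨⟨z, hz⟩, f, hf⟩ ⟨⟨z', hz'⟩, f', hf'⟩ e
    have e : f • z = f' • z' := congrArg Subtype.val e
    have e1 : (f'⁻¹ * f) • z = z' := by rw [mul_smul, e, inv_smul_smul]
    have e2 := h.uniq hxy (mul_mem (inv_mem hf'.1) hf.1) hz.1 hz.2 (e1 ▸ hz'.1)
    rw [e2, one_smul] at e1
    rw [inv_mul_eq_one] at e2
    subst e1 e2; rfl
  · rintro ⟨z, hz, hzx⟩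
    obtain ⟨f, hf, z', hz', hx, rfl⟩ := h.orbW hxy hW hz hzx
    exact ⟨(⟨z', hz', hx⟩, ⟨f, hf⟩), rfl⟩

theorem card_eq (hxy : x ≠ y) (hW : Ln N x y ⊆ Fx X W) (hz : z ∈ Fx X W) :
    Nat.card (F z ⊓ cz W : Subgroup G) = Nat.card (F x ⊓ cz W : Subgroup G) := by
  by_cases hzx : z = x
  · rw [hzx]
  obtain ⟨f, hf, z', hz', hx, rfl⟩ := h.orbW hxy hW hz hzx
  have hW' : Ln N (f • z') x ⊆ Fx X W := fun v hv => by
    have := h.Ln_smul f⁻¹ hv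
    rw [inv_smul_smul, h.F_fix (inv_mem hf.1), h.Ln_eq hxy hz' (h.left_mem x y) hx] at this
    simpa using Fx_smul hf.2 (hW this)
  have e1 := h.card_Fx hzx hW'
  rw [h.card_Fx hxy hW, h.Ln_card hzx hxy] at e1
  have : 1 < (Ln N x y).ncard := (Set.one_lt_ncard (Set.toFinite _)).2
    ⟨x, h.left_mem x y, y, right_mem x y, hxy⟩
  exact (Nat.eq_of_mul_eq_mul_left (by omega) e1).symm

theorem trans_Fx (hxy : x ≠ y) (hW : Ln N x y ⊆ Fx X W) (h1 : F x ⊓ cz W ≠ ⊥) {G₀ : Subgroup G}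
    (hG : ∀ u, F u ≤ G₀) (hz : z ∈ Fx X W) : ∃ c ∈ G₀ ⊓ cz W, c • x = z := by
  by_contra hc
  let O : Set X := {v | ∃ c ∈ G₀ ⊓ cz W, c • x = v}
  have hx : x ∈ O := ⟨1, one_mem _, one_smul _ _⟩
  have hO : ∀ u, ∀ g ∈ F u ⊓ cz W, ∀ v ∈ O, g • v ∈ O := by
    rintro u g hg _ ⟨c, hc, rfl⟩
    exact ⟨g * c, mul_mem ⟨hG u hg.1, hg.2⟩ hc, mul_smul _ _ _⟩
  have d1 := CL.SR.card_dvd_ncard_of_free (F z ⊓ cz W) O (hO z) fun g hg v hv e =>
    h.semi hg.1 (fun e' => hc (e' ▸ hv)) e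
  have d2 := CL.SR.card_dvd_ncard_of_free (F x ⊓ cz W) (O \ {x})
    (fun g hg v hv => ⟨hO x g hg v hv.1, fun e => hv.2
      (MulAction.injective g (e.trans (h.F_fix hg.1).symm))⟩) fun g hg v hv e => h.semi hg.1 hv.2 e
  rw [h.card_eq hxy hW hz, ← Set.ncard_sdiff_singleton_add_one hx] at d1
  exact h1 (card_eq_one.1 (Nat.dvd_one.1 ((Nat.dvd_add_right d2).1 d1)))

/-- the centraliser of `W` is transitive on the line -/
theorem trans_Ln (hxy : x ≠ y) (hW : Ln N x y ⊆ Fx X W) (h1 : F x ⊓ cz W ≠ ⊥) {G₀ : Subgroup G}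
    (hG : ∀ u, F u ≤ G₀) (hz : z ∈ Ln N x y) :
    ∃ c ∈ G₀ ⊓ cz W, c • x = z ∧ ∀ v ∈ Ln N x y, c • v ∈ Ln N x y := by
  obtain ⟨c, hc, rfl⟩ := h.trans_Fx hxy hW h1 hG (hW hz)
  obtain ⟨y', hy', hne⟩ : ∃ y' ∈ Ln N x y, c • x ≠ y' := by
    by_cases e : c • x = x
    · exact ⟨y, right_mem x y, e.symm ▸ hxy⟩
    · exact ⟨x, h.left_mem x y, e⟩
  have hL := h.Ln_eq hxy hz hy' hne
  obtain ⟨f, hf, z', hz', hx, e⟩ := h.orbW hne (hL ▸ hW) (Fx_smul hc.2 (hW (right_mem x y)))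
    fun e => hxy (MulAction.injective c e).symm
  have e1 : (f⁻¹ * c) • x = c • x := by rw [mul_smul, h.F_fix (inv_mem hf.1)]
  have e2 : (f⁻¹ * c) • y = z' := by rw [mul_smul, e, inv_smul_smul]
  refine ⟨f⁻¹ * c, mul_mem (inv_mem ⟨hG _ hf.1, hf.2⟩) hc, e1, fun v hv => ?_⟩
  have := h.Ln_smul (f⁻¹ * c) hv
  rwa [e1, e2, h.Ln_eq hxy hz (hL ▸ hz') hx.symm] at this

end Sv

end CL.OT
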