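import Mathlib

/-!
# O'Nan TI theorem, solvable half: the linear algebra on a line

A group acts on a finite set `L` (2-transitively) and linearly on the span of pairwise
non-proportional vectors `p u`; `H` is an invariant separating family of functionals not
vanishing on any `p u`, whose kernels have point-transitive centralisers. Then `|L| ≤ 3`.
-/

set_option autoImplicit false

namespace CL.OT.LA

variable {r : ℕ} [Fact r.Prime] {V L Γ : Type*} [AddCommGroup V] [Module (ZMod r) V] [Group Γ]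
  [MulAction Γ L]

structure Hy (ρ : Γ →* Module.End (ZMod r) V) (p : L → V) (H : Set (V →ₗ[ZMod r] ZMod r)) :
    Prop where
  np : ∀ u v, u ≠ v → ∀ c : ZMod r, p u ≠ c • p v
  act : ∀ (γ : Γ) u, ∃ c : ZMod r, ρ γ (p u) = c • p (γ • u)
  span : ∀ W : Submodule (ZMod r) V, (∀ u, p u ∈ W) → W = ⊤
  tr : ∀ x y z : L, y ≠ x → z ≠ x → ∃ γ : Γ, γ • x = x ∧ γ • y = z
  h1 : ∀ f ∈ H, ∀ u, f (p u) ≠ 0
  h0 : ∀ v, (∀ f ∈ H, f v = 0) → v = 0
  hc : ∀ f ∈ H, ∀ γ, f ∘ₗ ρ γ ∈ H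
  ht : ∀ f ∈ H, ∀ u v : L, ∃ γ : Γ, γ • u = v ∧ ∀ w, f w = 0 → ρ γ w = w

variable {ρ : Γ →* Module.End (ZMod r) V} {p : L → V} {H : Set (V →ₗ[ZMod r] ZMod r)}

theorem mul_ap (ρ : Γ →* Module.End (ZMod r) V) (a b : Γ) (v : V) : ρ (a * b) v = ρ a (ρ b v) := by
  rw [map_mul]; rfl

theorem inv_ap (ρ : Γ →* Module.End (ZMod r) V) (a : Γ) (v : V) : ρ a⁻¹ (ρ a v) = v := by
  rw [← mul_ap, inv_mul_cancel, map_one]; rfl

theorem ap_inv (ρ : Γ →* Module.End (ZMod r) V) (a : Γ) (v : V) : ρ a (ρ a⁻¹ v) = v := by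
  rw [← mul_ap, mul_inv_cancel, map_one]; rfl

theorem eq_zero (ρ : Γ →* Module.End (ZMod r) V) (a : Γ) {v : V} (h : ρ a v = 0) : v = 0 := by
  rw [← inv_ap ρ a v, h, map_zero]

/-- no translations -/
theorem Hy.T (h : Hy ρ p H) {γ : Γ} {u : L} {w : V} (h1 : ρ γ (p u) = p u + w)
    (h2 : ρ γ w = w) : w = 0 := by
  refine h.h0 w fun f hf => ?_
  by_contra hw
  have key : ∀ j : ℕ, ρ (γ ^ j) (p u) = p u + (j : ZMod r) • w := by
    intro j
    induction j with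
    | zero => simp
    | succ j ih =>
      rw [pow_succ', mul_ap, ih, map_add, map_smul, h1, h2, Nat.cast_succ, add_smul, one_smul]
      abel
  obtain ⟨c, hc⟩ := h.act (γ ^ (-(f (p u)) / f w).val) u
  have h3 := congrArg f hc
  rw [key, map_add, map_smul, map_smul, ZMod.natCast_zmod_val, smul_eq_mul, smul_eq_mul,
    div_mul_cancel₀ _ hw, add_neg_cancel] at h3
  rcases mul_eq_zero.1 h3.symm with h4 | h4
  · rw [h4, zero_smul] at hc
    exact h.h1 f hf u (by rw [eq_zero ρ _ hc, map_zero])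
  · exact h.h1 f hf _ h4

theorem Hy.triv (h : Hy ρ p H) {γ : Γ} (h1 : ∀ u, ρ γ (p u) = p u) : ρ γ = 1 := by
  have := h.span (LinearMap.eqLocus (ρ γ) LinearMap.id) h1
  ext v
  exact (this ▸ Submodule.mem_top : v ∈ LinearMap.eqLocus (ρ γ) LinearMap.id)

theorem Hy.fix_of (h : Hy ρ p H) {γ : Γ} {u v : L} {c : ZMod r} (hu : p u ≠ 0)
    (h1 : ρ γ (p u) = c • p v) : γ • u = v := by
  obtain ⟨c', hc'⟩ := h.act γ u
  have h0 : c' ≠ 0 := fun h0 => hu (eq_zero ρ γ (by rw [hc', h0, zero_smul]))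
  by_contra hne
  exact h.np _ _ hne (c'⁻¹ * c) (by rw [mul_smul, ← h1, hc', inv_smul_smul₀ h0])

theorem Hy.one (h : Hy ρ p H) (g : V →ₗ[ZMod r] ZMod r) {γ : Γ}
    (h1 : ∀ w, g w = 0 → ρ γ w = w) (h2 : ∀ v, g (ρ γ v) = g v) : ρ γ = 1 :=
  h.triv fun u => by
    have := h.T (γ := γ) (u := u) (w := ρ γ (p u) - p u) (by abel)
      (h1 _ (by rw [map_sub, h2, sub_self]))
    exact sub_eq_zero.1 this

theorem Hy.comm (h : Hy ρ p H) (g : V →ₗ[ZMod r] ZMod r) {γ γ' : Γ} {α α' β β' : ZMod r}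
    (h1 : ∀ w, g w = 0 → ρ γ w = α • w) (h1' : ∀ w, g w = 0 → ρ γ' w = α' • w)
    (h2 : ∀ v, g (ρ γ v) = β * g v) (h2' : ∀ v, g (ρ γ' v) = β' * g v) :
    ρ (γ * γ') = ρ (γ' * γ) := by
  have : ρ (γ * γ' * (γ' * γ)⁻¹) = 1 := by
    refine h.one g (fun w hw => ?_) fun v => ?_
    · by_cases hw0 : w = 0
      · rw [hw0, map_zero]
      have e1 : ρ (γ' * γ) w = (α * α') • w := by
        rw [mul_ap, h1 w hw, map_smul, h1' w hw, mul_smul]
      have e2 : ρ (γ * γ') w = (α * α') • w := by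
        rw [mul_ap, h1' w hw, map_smul, h1 w hw, mul_comm, mul_smul]
      have h0 : α * α' ≠ 0 := fun h0 => hw0 (eq_zero ρ _ (by rw [e1, h0, zero_smul]))
      have e3 : ρ (γ' * γ)⁻¹ w = (α * α')⁻¹ • w := by
        conv_lhs => rw [← inv_smul_smul₀ h0 w, ← e1]
        rw [map_smul, inv_ap]
      rw [mul_ap, e3, map_smul, e2, inv_smul_smul₀ h0]
    · conv_rhs => rw [← ap_inv ρ (γ' * γ) v]
      rw [mul_ap, mul_ap, mul_ap, h2, h2', h2', h2]; ring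
  calc ρ (γ * γ') = ρ (γ * γ' * (γ' * γ)⁻¹) * ρ (γ' * γ) := by
        rw [← map_mul, inv_mul_cancel_right]
    _ = _ := by rw [this, one_mul]

theorem Hy.lam (h : Hy ρ p H) {f : V →ₗ[ZMod r] ZMod r} (hf : f ∈ H) (u : L) {γ : Γ}
    (h1 : ∀ w, f w = 0 → f (ρ γ w) = 0) : ∃ β, ∀ v, f (ρ γ v) = β * f v := by
  have hu := h.h1 f hf u
  refine ⟨f (ρ γ (p u)) / f (p u), fun v => ?_⟩
  have := h1 (v - (f v / f (p u)) • p u)
    (by rw [map_sub, map_smul, smul_eq_mul, div_mul_cancel₀ _ hu, sub_self])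
  rw [map_sub, map_smul, map_sub, map_smul, smul_eq_mul, sub_eq_zero] at this
  rw [this]; field_simp

theorem Hy.lamZ (h : Hy ρ p H) {f : V →ₗ[ZMod r] ZMod r} (hf : f ∈ H) (u : L) {γ : Γ}
    (h1 : ∀ w, f w = 0 → ρ γ w = w) : ∃ β, ∀ v, f (ρ γ v) = β * f v :=
  h.lam hf u fun w hw => by rw [h1 w hw, hw]

theorem Hy.pne (h : Hy ρ p H) {u v : L} (huv : u ≠ v) : p u ≠ 0 := by
  simpa using h.np u v huv 0

theorem Hy.exH (h : Hy ρ p H) {v : V} (hv : v ≠ 0) : ∃ f ∈ H, f v ≠ 0 := by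
  by_contra hc
  push Not at hc
  exact hv (h.h0 v hc)

theorem Hy.lam_ne (h : Hy ρ p H) {f : V →ₗ[ZMod r] ZMod r} {γ : Γ} {u : L} (hu : γ • u ≠ u)
    (h1 : ∀ w, f w = 0 → ρ γ w = w) {β : ZMod r} (h2 : ∀ v, f (ρ γ v) = β * f v) : β ≠ 1 := by
  rintro rfl
  have := h.one f h1 (by simpa using h2)
  exact hu (h.fix_of (c := 1) (h.pne hu.symm) (by rw [this, one_smul]; rfl))

/-- rank two -/
theorem Hy.rk2 (h : Hy ρ p H) {x y : L} (hxy : x ≠ y) (v : V) :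
    ∃ s t : ZMod r, v = s • p x + t • p y := by
  obtain ⟨f, hf, -⟩ := h.exH (h.pne hxy)
  obtain ⟨c, hc, hZ⟩ := h.ht f hf x y
  obtain ⟨l, hl⟩ := h.lamZ hf x hZ
  have hl1 : l ≠ 1 := h.lam_ne (u := x) (by rw [hc]; exact hxy.symm) hZ hl
  obtain ⟨e, he⟩ := h.act c x
  rw [hc] at he
  have := h.span (Submodule.span (ZMod r) {p x, p y}) fun z => by
    obtain ⟨c', hc', hZ'⟩ := h.ht f hf x z
    obtain ⟨l', hl'⟩ := h.lamZ hf x hZ'
    obtain ⟨e', he'⟩ := h.act c' x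
    rw [hc'] at he'
    have he0 : e' ≠ 0 := fun h0 => h.pne hxy (eq_zero ρ c' (by rw [he', h0, zero_smul]))
    have hcm := congrArg (fun φ : Module.End (ZMod r) V => φ (p x))
      (h.comm f (α := 1) (α' := 1) (by simpa using hZ) (by simpa using hZ') hl hl')
    simp only [mul_ap] at hcm
    have e1 := hZ (ρ c' (p x) - l' • p x) (by rw [map_sub, map_smul, hl', smul_eq_mul, sub_self])
    have e2 := hZ' (ρ c (p x) - l • p x) (by rw [map_sub, map_smul, hl, smul_eq_mul, sub_self])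
    rw [map_sub, map_smul] at e1 e2
    rw [hcm] at e1
    have e3 : (l - 1) • ρ c' (p x) = (l' - 1) • ρ c (p x) + (l - l') • p x := by
      linear_combination (norm := module) e1 - e2
    rw [he, he'] at e3
    have h0 : (l - 1) * e' ≠ 0 := mul_ne_zero (sub_ne_zero.2 hl1) he0
    rw [Submodule.mem_span_pair]
    refine ⟨((l - 1) * e')⁻¹ * (l - l'), ((l - 1) * e')⁻¹ * ((l' - 1) * e), ?_⟩
    rw [mul_smul, mul_smul, ← smul_add, mul_smul (l' - 1), add_comm, ← e3, ← mul_smul (l - 1),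
      inv_smul_smul₀ h0]
  obtain ⟨s, t, hst⟩ := Submodule.mem_span_pair.1 (this ▸ Submodule.mem_top :
    v ∈ Submodule.span (ZMod r) {p x, p y})
  exact ⟨s, t, hst.symm⟩

/-- the kernel vector of a functional in rank two -/
def ev (p : L → V) (x y : L) (f : V →ₗ[ZMod r] ZMod r) : V := f (p y) • p x - f (p x) • p y

theorem ev_ker (x y : L) (f : V →ₗ[ZMod r] ZMod r) : f (ev p x y f) = 0 := by
  simp [ev, mul_comm]

theorem ev_swap (x y : L) (f g : V →ₗ[ZMod r] ZMod r) : f (ev p x y g) = - g (ev p x y f) := by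
  simp [ev, mul_comm]

theorem Hy.ker (h : Hy ρ p H) {x y : L} (hxy : x ≠ y) {f : V →ₗ[ZMod r] ZMod r}
    (hf : f (p y) ≠ 0) {w : V} (hw : f w = 0) : ∃ c : ZMod r, w = c • ev p x y f := by
  obtain ⟨s, t, rfl⟩ := h.rk2 hxy w
  rw [map_add, map_smul, map_smul, smul_eq_mul, smul_eq_mul] at hw
  refine ⟨s / f (p y), ?_⟩
  have : t = -(s / f (p y) * f (p x)) := by field_simp; linear_combination hw
  rw [ev, smul_sub, smul_smul, smul_smul, div_mul_cancel₀ _ hf, this]; module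

theorem Hy.ev_ne (h : Hy ρ p H) {x y : L} (hxy : x ≠ y) {f : V →ₗ[ZMod r] ZMod r}
    (hf : f (p y) ≠ 0) : ev p x y f ≠ 0 := fun h0 =>
  h.np x y hxy ((f (p y))⁻¹ * f (p x)) (by
    rw [mul_smul, ← sub_eq_zero.1 h0, inv_smul_smul₀ hf])

/-- an element preserving the kernel acts on it by a scalar -/
theorem Hy.sc (h : Hy ρ p H) {x y : L} (hxy : x ≠ y) {f : V →ₗ[ZMod r] ZMod r}
    (hf : f (p y) ≠ 0) {γ : Γ} (h1 : f (ρ γ (ev p x y f)) = 0) :
    ∃ α : ZMod r, α ≠ 0 ∧ ∀ w, f w = 0 → ρ γ w = α • w := by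
  obtain ⟨α, hα⟩ := h.ker hxy hf h1
  refine ⟨α, fun h0 => h.ev_ne hxy hf (eq_zero ρ γ (by rw [hα, h0, zero_smul])), fun w hw => ?_⟩
  obtain ⟨c, rfl⟩ := h.ker hxy hf hw
  rw [map_smul, hα, smul_comm]

/-- two-point stabilisers are trivial -/
theorem Hy.fix2 (h : Hy ρ p H) {x y : L} (hxy : x ≠ y) {γ : Γ} (hx : γ • x = x) (hy : γ • y = y)
    (z : L) : γ • z = z := by
  by_cases hz : z = x
  · rw [hz, hx]
  obtain ⟨δ, hδx, hδy⟩ := h.tr x y z hxy.symm hz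
  obtain ⟨g, hg, hg'⟩ := Submodule.exists_le_ker_of_notMem (p := Submodule.span (ZMod r) {p x})
    (v := p y) (fun hm => by
      obtain ⟨c, hc⟩ := Submodule.mem_span_singleton.1 hm
      exact h.np y x hxy.symm c hc.symm)
  have hgx : g (p x) = 0 := hg' (Submodule.mem_span_singleton_self _)
  have A : ∀ ε : Γ, ε • x = x → (∃ α : ZMod r, ∀ w, g w = 0 → ρ ε w = α • w) ∧
      ∃ β, ∀ v, g (ρ ε v) = β * g v := by
    intro ε hε
    obtain ⟨c, hc⟩ := h.act ε x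
    rw [hε] at hc
    obtain ⟨α, -, hα⟩ := h.sc hxy hg (γ := ε) (by simp [ev, hgx, hc])
    refine ⟨⟨α, hα⟩, g (ρ ε (p y)) / g (p y), fun v => ?_⟩
    obtain ⟨s, t, rfl⟩ := h.rk2 hxy v
    simp only [map_add, map_smul, hc, hgx, smul_eq_mul]
    field_simp; ring
  obtain ⟨⟨α, h1⟩, β, h2⟩ := A γ hx
  obtain ⟨⟨α', h1'⟩, β', h2'⟩ := A δ hδx
  have hcm := h.comm g h1 h1' h2 h2'
  obtain ⟨c, hc⟩ := h.act (δ * γ) y
  rw [← hcm] at hc
  have := h.fix_of (h.pne hxy.symm) hc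
  rwa [mul_smul, mul_smul, hy, hδy] at this

theorem Hy.scal (h : Hy ρ p H) {x y z : L} (hxy : x ≠ y) (hzx : z ≠ x) (hzy : z ≠ y) {γ : Γ}
    (hx : γ • x = x) (hy : γ • y = y) : ∃ α : ZMod r, ∀ v, ρ γ v = α • v := by
  obtain ⟨a, ha⟩ := h.act γ x
  obtain ⟨b, hb⟩ := h.act γ y
  obtain ⟨c, hc⟩ := h.act γ z
  rw [hx] at ha; rw [hy] at hb; rw [h.fix2 hxy hx hy z] at hc
  obtain ⟨s, t, hst⟩ := h.rk2 hxy (p z)
  have hs : s ≠ 0 := fun h0 => h.np z y hzy t (by rw [hst, h0, zero_smul, zero_add])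
  have ht : t ≠ 0 := fun h0 => h.np z x hzx s (by rw [hst, h0, zero_smul, add_zero])
  rw [hst, map_add, map_smul, map_smul, ha, hb] at hc
  have ind : ∀ s t : ZMod r, s • p x + t • p y = 0 → s = 0 ∧ t = 0 := by
    intro s t hst
    have hs : s = 0 := by
      by_contra hs
      exact h.np x y hxy (s⁻¹ * -t) (by
        rw [mul_smul, neg_smul, ← eq_neg_of_add_eq_zero_left hst, inv_smul_smul₀ hs])
    rw [hs, zero_smul, zero_add] at hst
    exact ⟨hs, (smul_eq_zero.1 hst).resolve_right (h.pne hxy.symm)⟩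
  obtain ⟨e1, e2⟩ := ind (s * (a - c)) (t * (b - c)) (by linear_combination (norm := module) hc)
  have e3 : a = c := sub_eq_zero.1 ((mul_eq_zero.1 e1).resolve_left hs)
  have e4 : b = c := sub_eq_zero.1 ((mul_eq_zero.1 e2).resolve_left ht)
  refine ⟨c, fun v => ?_⟩
  obtain ⟨s', t', rfl⟩ := h.rk2 hxy v
  rw [map_add, map_smul, map_smul, ha, hb, e3, e4]; module

/-- the centraliser of one kernel preserves every other kernel -/
theorem Hy.pres [Finite L] (h : Hy ρ p H) {x y z : L} (hxy : x ≠ y) (hzx : z ≠ x) (hzy : z ≠ y)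
    {f g : V →ₗ[ZMod r] ZMod r} (hf : f ∈ H) (hg : g ∈ H) (hfg : f (ev p x y g) ≠ 0) {c : Γ}
    (hc : ∀ w, f w = 0 → ρ c w = w) : g (ρ c (ev p x y g)) = 0 := by
  choose cf hcf hZf using h.ht f hf x
  choose cg hcg hZg using h.ht g hg x
  set e := ev p x y g with he
  have hge : g e = 0 := ev_ker x y g
  -- `σ u = cf u * cg ((cf u)⁻¹ x)` fixes `x`
  let σ : L → Γ := fun u => cf u * cg ((cf u)⁻¹ • x)
  have hσx : ∀ u, σ u • x = x := fun u => by simp only [σ, mul_smul, hcg, smul_inv_smul]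
  have hσe : ∀ u, ρ (σ u) e = ρ (cf u) e := fun u => by simp only [σ, mul_ap, hZg _ e hge]
  have hni : ¬ Function.Injective fun u => σ u • y := fun hi => by
    obtain ⟨u, hu⟩ := Finite.surjective_of_injective hi x
    exact hxy ((MulAction.injective (σ u) ((hσx u).trans hu.symm)))
  obtain ⟨u, v, huv, hne⟩ := Function.not_injective_iff.1 hni
  obtain ⟨α, hα⟩ := h.scal hxy hzx hzy (γ := (σ v)⁻¹ * σ u)
    (by rw [mul_smul, hσx, inv_smul_eq_iff, hσx]) (by rw [mul_smul, huv, inv_smul_smul])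
  have e1 : ρ ((cf v)⁻¹ * cf u) e = α • e := by
    rw [mul_ap, ← hσe, ← ap_inv ρ (σ v) (ρ (σ u) e), ← mul_ap ρ (σ v)⁻¹, hα, map_smul, hσe,
      map_smul, inv_ap]
  have hZ : ∀ w, f w = 0 → ρ ((cf v)⁻¹ * cf u) w = w := fun w hw => by
    rw [mul_ap, hZf u w hw]
    conv_lhs => rw [← hZf v w hw]
    rw [inv_ap]
  obtain ⟨l, hl⟩ := h.lamZ hf x hZ
  have hl1 : l ≠ 1 := h.lam_ne (u := x)
    (by rw [mul_smul, hcf, Ne, inv_smul_eq_iff, hcf]; exact hne) hZ hl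
  have hαl : α = l := by
    have := hl e
    rw [e1, map_smul, smul_eq_mul] at this
    exact mul_right_cancel₀ hfg this
  obtain ⟨l', hl'⟩ := h.lamZ hf x hc
  have hcm := congrArg (fun φ : Module.End (ZMod r) V => φ e)
    (h.comm f (α := 1) (α' := 1) (by simpa using hZ) (by simpa using hc) hl hl')
  simp only [mul_ap ρ _ c, mul_ap ρ c] at hcm
  rw [e1, map_smul] at hcm
  -- `ρ c e = l' e + w`, `w ∈ ker f`
  have e2 := hZ (ρ c e - l' • e) (by rw [map_sub, map_smul, hl', smul_eq_mul, sub_self])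
  rw [map_sub, map_smul, hcm, e1, hαl] at e2
  have e3 : (l - 1) • (ρ c e - l' • e) = 0 := by linear_combination (norm := module) e2
  rw [sub_eq_zero.1 ((smul_eq_zero.1 e3).resolve_left (sub_ne_zero.2 hl1)), map_smul, hge,
    smul_zero]

theorem Hy.two [Finite L] (h : Hy ρ p H) {x y z : L} (hxy : x ≠ y) (hzx : z ≠ x) (hzy : z ≠ y)
    {f g k : V →ₗ[ZMod r] ZMod r} (hf : f ∈ H) (hg : g ∈ H) (hk : k ∈ H)
    (hfg : f (ev p x y g) ≠ 0) : k (ev p x y f) = 0 ∨ k (ev p x y g) = 0 := by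
  by_contra hc
  push Not at hc
  have hfk : f (ev p x y k) ≠ 0 := by rw [ev_swap]; exact neg_ne_zero.2 hc.1
  have hgk : g (ev p x y k) ≠ 0 := by rw [ev_swap]; exact neg_ne_zero.2 hc.2
  have hgf : g (ev p x y f) ≠ 0 := by rw [ev_swap]; exact neg_ne_zero.2 hfg
  obtain ⟨c, hcx, hZ⟩ := h.ht f hf x y
  obtain ⟨l, hl⟩ := h.lamZ hf x hZ
  have hl1 : l ≠ 1 := h.lam_ne (u := x) (by rw [hcx]; exact hxy.symm) hZ hl
  obtain ⟨μ, -, hμ⟩ := h.sc hxy (h.h1 g hg y) (h.pres hxy hzx hzy hf hg hfg hZ)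
  obtain ⟨ν, -, hν⟩ := h.sc hxy (h.h1 k hk y) (h.pres hxy hzx hzy hf hk hfk hZ)
  obtain ⟨β, hβ⟩ := h.lam hg x (γ := c) fun w hw => by rw [hμ w hw, map_smul, hw, smul_zero]
  have e1 := hβ (ev p x y f)
  rw [hZ _ (ev_ker x y f)] at e1
  have e2 := hβ (ev p x y k)
  have e3 := hl (ev p x y k)
  rw [hν _ (ev_ker x y k), map_smul, smul_eq_mul] at e2 e3
  have hβ1 : β = 1 := mul_right_cancel₀ hgf (by rw [← e1, one_mul])
  exact hl1 (by rw [← mul_right_cancel₀ hfk e3, mul_right_cancel₀ hgk e2, hβ1])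

theorem Hy.keep [Finite L] (h : Hy ρ p H) {x y z : L} (hxy : x ≠ y) (hzx : z ≠ x) (hzy : z ≠ y)
    {f g : V →ₗ[ZMod r] ZMod r} (hf : f ∈ H) (hg : g ∈ H) (hfg : f (ev p x y g) ≠ 0) {δ : Γ}
    (hδ : δ • x = x) (h1 : f (ρ δ (ev p x y f)) = 0) : δ • y = y := by
  have hgf : g (ev p x y f) ≠ 0 := by rw [ev_swap]; exact neg_ne_zero.2 hfg
  obtain ⟨α, hα0, hα⟩ := h.sc hxy (h.h1 f hf y) h1
  have h2 : g (ρ δ (ev p x y g)) = 0 := by
    refine (h.two hxy hzx hzy hf hg (h.hc g hg δ) hfg).resolve_left ?_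
    rw [LinearMap.comp_apply, hα _ (ev_ker x y f), map_smul, smul_eq_mul]
    exact mul_ne_zero hα0 hgf
  obtain ⟨α', -, hα'⟩ := h.sc hxy (h.h1 g hg y) h2
  obtain ⟨β, hβ⟩ := h.lam hg x (γ := δ) fun w hw => by rw [hα' w hw, map_smul, hw, smul_zero]
  obtain ⟨β', hβ'⟩ := h.lam hf x (γ := δ) fun w hw => by rw [hα w hw, map_smul, hw, smul_zero]
  obtain ⟨c, hc⟩ := h.act δ x
  rw [hδ] at hc
  have e1 := hβ (p x)
  have e2 := hβ' (p x)
  rw [hc, map_smul, smul_eq_mul] at e1 e2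
  have e3 := mul_right_cancel₀ (h.h1 g hg x) e1
  have e4 := mul_right_cancel₀ (h.h1 f hf x) e2
  obtain ⟨d, hd⟩ := h.ker hxy (h.h1 f hf y) (w := ρ δ (p y) - c • p y)
    (by rw [map_sub, hβ', map_smul, smul_eq_mul, e4, sub_self])
  have e5 := congrArg g hd
  rw [map_sub, hβ, map_smul, map_smul, smul_eq_mul, smul_eq_mul, e3, sub_self] at e5
  rw [(mul_eq_zero.1 e5.symm).resolve_right hgf, zero_smul] at hd
  exact h.fix_of (h.pne hxy.symm) (sub_eq_zero.1 hd)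

theorem Hy.false [Finite L] (h : Hy ρ p H) {x y z z' : L} (hxy : x ≠ y) (hzx : z ≠ x)
    (hzy : z ≠ y) (hzx' : z' ≠ x) (hzy' : z' ≠ y) (hzz : z ≠ z') : False := by
  obtain ⟨g, hg, -⟩ := h.exH (h.pne hxy)
  obtain ⟨f, hf, hfg⟩ := h.exH (h.ev_ne hxy (h.h1 g hg y))
  have hgf : g (ev p x y f) ≠ 0 := by rw [ev_swap]; exact neg_ne_zero.2 hfg
  have A : ∀ {u : L} {γ : Γ}, u ≠ y → γ • x = x → γ • y = u →
      ∃ α : ZMod r, α ≠ 0 ∧ ρ γ (ev p x y g) = α • ev p x y f := by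
    intro u γ hu hγ hγy
    have := (h.two hxy hzx hzy hf hg (h.hc f hf γ) hfg).resolve_left fun h1 =>
      hu (hγy ▸ h.keep hxy hzx hzy hf hg hfg hγ h1)
    obtain ⟨α, hα⟩ := h.ker hxy (h.h1 f hf y) this
    exact ⟨α, fun h0 => h.ev_ne hxy (h.h1 g hg y) (eq_zero ρ γ (by rw [hα, h0, zero_smul])), hα⟩
  obtain ⟨γ, hγ, hγy⟩ := h.tr x y z hxy.symm hzx
  obtain ⟨γ', hγ', hγy'⟩ := h.tr x y z' hxy.symm hzx'
  obtain ⟨α, hα0, hα⟩ := A hzy hγ hγy
  obtain ⟨α', -, hα'⟩ := A hzy' hγ' hγy'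
  have := h.keep hxy hzx hzy hg hf hgf (δ := γ⁻¹ * γ')
    (by rw [mul_smul, hγ', inv_smul_eq_iff, hγ]) (by
      rw [mul_ap, hα', ← inv_smul_smul₀ hα0 (ev p x y f), ← hα, map_smul, map_smul, map_smul,
        inv_ap, map_smul, ev_ker, smul_zero, smul_zero])
  rw [mul_smul, hγy', inv_smul_eq_iff, hγy] at this
  exact hzz this.symm

end CL.OT.LA
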