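import Cfsg.Agent.PERM.OT.SB
import Cfsg.Agent.PERM.OT.SL

/-! O'Nan TI theorem, solvable half: lines have two points. -/

set_option autoImplicit false
set_option linter.unusedSectionVars false
set_option linter.style.haveILetI false

namespace CL.OT

open Cfsg Subgroup CL.MSS CL.CT CL.CT.Y MulAction

/-- multiplicative form of `LA.Hy.false` -/
theorem LM {r : ℕ} (hr : r.Prime) {E L Γ : Type*} [CommGroup E] [Group Γ] [MulAction Γ L]
    [Finite L] (ρ : Γ →* MulAut E) (p : L → E) (H : Set (Subgroup E)) (ex : ∀ e : E, e ^ r = 1)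
    (np : ∀ u v, u ≠ v → p u ∉ zpowers (p v)) (act : ∀ (γ : Γ) u, ρ γ (p u) ∈ zpowers (p (γ • u)))
    (span : closure (Set.range p) = ⊤)
    (tr : ∀ x y z : L, y ≠ x → z ≠ x → ∃ γ : Γ, γ • x = x ∧ γ • y = z)
    (h1 : ∀ B ∈ H, ∀ u, p u ∉ B) (h0 : ∀ v, (∀ B ∈ H, (∃ a, B ⊔ zpowers a = ⊤) → v ∈ B) → v = 1)
    (hc : ∀ B ∈ H, ∀ γ, B.comap (ρ γ).toMonoidHom ∈ H)
    (ht : ∀ B ∈ H, ∀ u v : L, ∃ γ : Γ, γ • u = v ∧ ∀ w ∈ B, ρ γ w = w)
    {x y z z' : L} (hxy : x ≠ y) (hzx : z ≠ x)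
    (hzy : z ≠ y) (hzx' : z' ≠ x) (hzy' : z' ≠ y) (hzz : z ≠ z') : False := by
  have : Fact r.Prime := ⟨hr⟩
  obtain ⟨V, _, _, ⟨φ⟩⟩ : ∃ (V : Type _) (_ : AddCommGroup V) (_ : Module (ZMod r) V),
      Nonempty (Additive E ≃+ V) :=
    ⟨Additive E, inferInstance, AddCommGroup.zmodModule fun v => ex v.toMul, ⟨AddEquiv.refl _⟩⟩
  let ρ' : Γ →* Module.End (ZMod r) V :=
    { toFun := fun γ => (φ.toAddMonoidHom.comp ((MonoidHom.toAdditive (ρ γ).toMonoidHom).comp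
        φ.symm.toAddMonoidHom)).toZModLinearMap r
      map_one' := by ext v; simp
      map_mul' := fun a b => by ext v; simp }
  have hρ : ∀ γ e, ρ' γ (φ (Additive.ofMul e)) = φ (Additive.ofMul (ρ γ e)) := fun γ e => by
    simp [ρ']
  let S : Submodule (ZMod r) V → Subgroup E := fun W =>
    AddSubgroup.toSubgroup' (W.toAddSubgroup.comap φ.toAddMonoidHom)
  have hS : ∀ W e, e ∈ S W ↔ φ (Additive.ofMul e) ∈ W := fun W e => Iff.rfl
  have sur : ∀ v : V, ∃ e, v = φ (Additive.ofMul e) := fun v => ⟨(φ.symm v).toMul, by simp⟩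
  refine LA.Hy.false (ρ := ρ') (p := fun u => φ (Additive.ofMul (p u)))
    (H := {f | S (LinearMap.ker f) ∈ H})
    ⟨fun u v huv c e => np u v huv ⟨(c.val : ℤ), ?_⟩, fun γ u => ?_, fun W hW => ?_, tr,
      fun f hf u => h1 _ hf u, fun v hv => ?_, fun f hf γ => ?_, fun f hf u v => ?_⟩
    hxy hzx hzy hzx' hzy' hzz
  · rw [← ZMod.natCast_zmod_val c, Nat.cast_smul_eq_nsmul, ← map_nsmul] at e
    exact (zpow_natCast _ _).trans (congrArg Additive.toMul (φ.injective e)).symm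
  · obtain ⟨j, hj⟩ := act γ u
    refine ⟨(j : ZMod r), ?_⟩
    rw [Int.cast_smul_eq_zsmul, hρ, ← hj, ← map_zsmul]; rfl
  · refine eq_top_iff.2 fun v _ => ?_
    obtain ⟨e, rfl⟩ := sur v
    have : closure (Set.range p) ≤ S W := (closure_le _).2 (by rintro _ ⟨u, rfl⟩; exact hW u)
    exact this (span ▸ mem_top e)
  · obtain ⟨e, rfl⟩ := sur v
    rw [h0 e fun B hB ⟨a, ha⟩ => ?_, ofMul_one, map_zero]
    obtain ⟨f, hf, hBf⟩ := Submodule.exists_le_ker_of_notMem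
      (p := AddSubgroup.toZModSubmodule r ((Subgroup.toAddSubgroup B).map φ.toAddMonoidHom))
      (v := φ (Additive.ofMul (p x))) (fun ⟨b, hb, e⟩ => h1 B hB x (by
        rw [φ.injective e] at hb; exact hb))
    have hB0 : ∀ b ∈ B, f (φ (Additive.ofMul b)) = 0 := fun b hb => hBf ⟨_, hb, rfl⟩
    have dec : ∀ w : E, ∃ b ∈ B, ∃ j : ℤ, w = b * a ^ j ∧
        f (φ (Additive.ofMul w)) = j * f (φ (Additive.ofMul a)) := fun w => by
      obtain ⟨b, hb, _, ⟨j, rfl⟩, rfl⟩ := mem_sup.1 (ha ▸ mem_top w : w ∈ B ⊔ zpowers a)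
      refine ⟨b, hb, j, rfl, ?_⟩
      rw [ofMul_mul, map_add, map_add, hB0 b hb, zero_add, ofMul_zpow, map_zsmul, map_zsmul,
        zsmul_eq_mul]
    have hfa : f (φ (Additive.ofMul a)) ≠ 0 := fun e => by
      obtain ⟨b, -, j, -, e'⟩ := dec (p x)
      exact hf (by rw [e', e, mul_zero])
    have hKB : S (LinearMap.ker f) = B := le_antisymm (fun w hw => by
      obtain ⟨b, hb, j, rfl, e'⟩ := dec w
      obtain ⟨i, rfl⟩ := (ZMod.intCast_zmod_eq_zero_iff_dvd j r).1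
        ((mul_eq_zero.1 (e'.symm.trans ((hS _ _).1 hw))).resolve_right hfa)
      rwa [zpow_mul, zpow_natCast, ex, one_zpow, mul_one]) hB0
    exact hKB ▸ (hS _ _).2 (hv f (show S _ ∈ H from hKB ▸ hB))
  · have : S (LinearMap.ker (f ∘ₗ ρ' γ)) = (S (LinearMap.ker f)).comap (ρ γ).toMonoidHom := by
      ext e
      rw [hS, LinearMap.mem_ker, LinearMap.comp_apply, hρ]; rfl
    exact (this ▸ hc _ hf γ : S (LinearMap.ker (f ∘ₗ ρ' γ)) ∈ H)
  · obtain ⟨γ, e1, e2⟩ := ht _ hf u v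
    refine ⟨γ, e1, fun w hw => ?_⟩
    obtain ⟨e, rfl⟩ := sur w
    rw [hρ, e2 e hw]

variable {G X : Type*} [Group G] [MulAction G X]

namespace Sv

variable [Finite G] [Finite X] {r : ℕ} {N F : X → Subgroup G} (h : Sv r N F) {x y z z' : X}
include h

theorem inv_Ln (hxy : x ≠ y) {g : G} {a b : X} (hab : a ≠ b) (ha : a ∈ Ln N x y)
    (hb : b ∈ Ln N x y) (ha' : g • a ∈ Ln N x y) (hb' : g • b ∈ Ln N x y) {v : X} :
    v ∈ Ln N x y ↔ g • v ∈ Ln N x y := by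
  have e1 := h.Ln_eq hxy ha hb hab
  have e2 := h.Ln_eq hxy ha' hb' fun e => hab (MulAction.injective g e)
  refine ⟨fun hv => e2 ▸ h.Ln_smul g (e1 ▸ hv), fun hv => ?_⟩
  simpa [e1] using h.Ln_smul g⁻¹ (e2.symm ▸ hv : g • v ∈ Ln N (g • a) (g • b))

theorem eq_one_of_cent (hxy : x ≠ y) {w : G} (hw : ∀ z ∈ Ln N x y, w • z = z)
    (hc : F x ≤ c1 w) : w = 1 := h.faith w fun v => by
  by_cases hv : v = x
  · exact hw v (hv ▸ h.left_mem x y)
  obtain ⟨f, hf, z, hz, -, rfl⟩ := h.orb hxy hv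
  exact fix_comm (hw z hz) (mem_centralizer_singleton_iff.1 (hc hf))

theorem le_three (hxy : x ≠ y) (hz : z ∈ Ln N x y) (hz' : z' ∈ Ln N x y) (hzx : z ≠ x)
    (hzy : z ≠ y) (hzx' : z' ≠ x) (hzy' : z' ≠ y) : z = z' := by
  by_contra hzz
  have hx := h.left_mem x y
  have hy : y ∈ Ln N x y := right_mem x y
  let Γ : Subgroup G :=
    { carrier := {g | ∀ v, v ∈ Ln N x y ↔ g • v ∈ Ln N x y}
      mul_mem' := fun {a b} ha hb v => by rw [mul_smul]; exact (hb v).trans (ha _)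
      one_mem' := fun v => by rw [one_smul]
      inv_mem' := fun {a} ha v => by rw [ha (a⁻¹ • v), smul_inv_smul] }
  letI : MulAction Γ (Ln N x y) :=
    { smul := fun g v => ⟨g.1 • v.1, (g.2 v.1).1 v.2⟩
      one_smul := fun v => Subtype.ext (one_smul G v.1)
      mul_smul := fun a b v => Subtype.ext (mul_smul a.1 b.1 v.1) }
  have oth : ∀ u : Ln N x y, ∃ v ∈ Ln N x y, u.1 ≠ v := fun u => by
    by_cases e : u.1 = x
    · exact ⟨y, hy, fun e' => hxy (e.symm.trans e')⟩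
    · exact ⟨x, hx, e⟩
  choose o ho hne using oth
  choose p hp p1 using fun u : Ln N x y => h.exists_A (hne u)
  have hpA : ∀ (u : Ln N x y) v, v ∈ Ln N x y → u.1 ≠ v → p u ∈ A N u.1 v := fun u v hv huv =>
    ⟨(hp u).1, ((h.Ln_eq hxy u.2 (ho u) (hne u)).symm ▸ hv : v ∈ Ln N u.1 (o u)) _ (hp u)⟩
  have hcm : ∀ a ∈ Set.range p, ∀ b ∈ Set.range p, a * b = b * a := by
    rintro _ ⟨u, rfl⟩ _ ⟨v, rfl⟩
    by_cases e : u = v
    · rw [e]
    · have e' : u.1 ≠ v.1 := fun e' => e (Subtype.ext e')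
      exact h.comm e' (hpA u v v.2 e') (hpA v u u.2 e'.symm)
  let E := closure (Set.range p)
  have hEc : IsMulCommutative E := isMulCommutative_closure hcm
  letI : CommGroup E := { (inferInstance : Group E) with mul_comm := hEc.is_comm.comm }
  have hpE : ∀ u, p u ∈ E := fun u => subset_closure ⟨u, rfl⟩
  have hact : ∀ (γ : Γ) (u : Ln N x y), γ.1 * p u * γ.1⁻¹ ∈ zpowers (p (γ • u)) := fun γ u => by
    have e : (γ • u).1 ≠ γ.1 • o u := fun e => hne u (MulAction.injective γ.1 e)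
    exact mem_zpowers_of_card h.pr (h.cA e) (hpA (γ • u) _ ((γ.2 _).1 (ho u)) e) (p1 _)
      (h.A_conj γ.1 (hp u))
  have hΓE : Γ ≤ nz E := fun γ hγ => mem_normalizer_of_cj_le (by
    rw [cj_closure, closure_le]
    rintro _ ⟨_, ⟨u, rfl⟩, rfl⟩
    exact (zpowers_le.2 (hpE _)) (hact ⟨γ, hγ⟩ u))
  have hEL : Ln N x y ⊆ Fx X E := fun v hv => by
    have : E ≤ stabilizer G v := (closure_le _).2 (by
      rintro _ ⟨u, rfl⟩
      by_cases e : u.1 = v
      · exact e ▸ h.fix (hp u).1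
      · exact (hpA u v hv e).2)
    exact fun w hw => this hw
  have hBL : ∀ B : Subgroup E, Ln N x y ⊆ Fx X (B.map E.subtype) := fun B v hv w hw =>
    hEL hv w (map_subtype_le B hw)
  have ex : ∀ e : E, e ^ r = 1 := fun e => by
    have : E ≤ ((powMonoidHom r : E →* E).ker).map E.subtype := (closure_le _).2 (by
      rintro _ ⟨u, rfl⟩
      refine ⟨⟨p u, hpE u⟩, Subtype.ext ?_, rfl⟩
      exact orderOf_dvd_iff_pow_eq_one.1 (h.cA (hne u) ▸ orderOf_dvd_natCard _ (hp u)))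
    obtain ⟨e', he', e1⟩ := this e.2
    exact (Subtype.ext e1 : e' = e) ▸ he'
  let ρ : Γ →* MulAut E := E.normalizerMonoidHom.comp (inclusion hΓE)
  have hρ : ∀ (γ : Γ) (e : E), (ρ γ e : G) = γ.1 * e * γ.1⁻¹ := fun _ _ => rfl
  have hH : ∀ (B : Subgroup E) (u : Ln N x y), F x ⊓ cz (B.map E.subtype) ≠ ⊥ →
      F u.1 ⊓ cz (B.map E.subtype) ≠ ⊥ := fun B u h1 e =>
    h1 (card_eq_one.1 (by rw [← h.card_eq hxy (hBL B) (hBL B u.2), e, card_bot]))
  refine LM h.pr ρ (fun u => ⟨p u, hpE u⟩) {B | F x ⊓ cz (B.map E.subtype) ≠ ⊥} ex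
    (fun u v huv ⟨j, hj⟩ => p1 u ?_) (fun γ u => ?_) ?_ (fun a b c hb hc => ?_) (fun B hB u hu => ?_)
    (fun v hv => Subtype.ext ?_) (fun B hB γ => ?_) (fun B hB u v => ?_)
    (x := ⟨x, hx⟩) (y := ⟨y, hy⟩) (z := ⟨z, hz⟩) (z' := ⟨z', hz'⟩)
    (fun e => hxy (congrArg Subtype.val e)) (fun e => hzx (congrArg Subtype.val e))
    (fun e => hzy (congrArg Subtype.val e)) (fun e => hzx' (congrArg Subtype.val e))
    (fun e => hzy' (congrArg Subtype.val e)) (fun e => hzz (congrArg Subtype.val e))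
  · have e : p v ^ j = p u := congrArg Subtype.val hj
    exact h.eq_one (fun e' => huv (Subtype.ext e')) (hp u).1 (e ▸ (N v.1).zpow_mem (hp v).1 j)
  · obtain ⟨j, hj⟩ := hact γ u
    exact ⟨j, Subtype.ext hj⟩
  · refine map_injective E.subtype_injective ?_
    rw [MonoidHom.map_closure, ← Set.range_comp, ← MonoidHom.range_eq_map, range_subtype]; rfl
  · have hb' : a.1 ≠ b.1 := fun e => hb (Subtype.ext e.symm)
    obtain ⟨g, g1, g2⟩ := h.two hb' (fun e => hc (Subtype.ext e.symm) : a.1 ≠ c.1)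
    exact ⟨⟨g, fun v => h.inv_Ln hxy hb' a.2 b.2 (g1.symm ▸ a.2) (g2.symm ▸ c.2)⟩,
      Subtype.ext g1, Subtype.ext g2⟩
  · refine hH B u hB (eq_bot_iff.2 fun f hf => mem_bot.2 ?_)
    exact h.cF (hne u) (hp u) (p1 u) hf.1 (hf.2 _ ⟨_, hu, rfl⟩).symm
  · refine h.eq_one_of_cent hxy (fun z hz => hEL hz _ v.2) ?_
    have : Fact r.Prime := ⟨h.pr⟩
    have hEp : IsPGroup r E := fun e => ⟨1, by rw [pow_one, ex]⟩
    obtain ⟨k, hk⟩ := IsPGroup.iff_card.1 hEp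
    refine coprime_le_of_forall_cyclic_quotient E (F x) _ (fun e he => h.F_nz (hEL hx e he))
      (hk ▸ (h.cop x).symm.pow_left k) fun B a hBa => ?_
    have hBE : B ≤ E := hBa ▸ le_sup_left
    have haE : a ∈ E := hBa ▸ mem_sup_right (mem_zpowers a)
    have e1 : (B.subgroupOf E).map E.subtype = B := map_subgroupOf_eq_of_le hBE
    by_cases e : F x ⊓ cz B = ⊥
    · exact e.le.trans bot_le
    have := hv (B.subgroupOf E) (by rwa [Set.mem_ofPred_eq, e1]) ⟨⟨a, haE⟩, by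
      refine map_injective E.subtype_injective ?_
      rw [Subgroup.map_sup, e1, MonoidHom.map_zpowers, ← MonoidHom.range_eq_map, range_subtype]
      exact hBa⟩
    exact fun f hf => mem_centralizer_singleton_iff.2 (hf.2 _ this).symm
  · obtain ⟨⟨f, hf⟩, f1⟩ := ne_bot_iff_exists_ne_one.1 (hH B (γ • ⟨x, hx⟩) hB)
    refine ne_bot_iff_exists_ne_one.2 ⟨⟨γ.1⁻¹ * f * γ.1⁻¹⁻¹, ?_, ?_⟩, fun e => f1 (Subtype.ext ?_)⟩
    · have := h.F_conj γ.1⁻¹ hf.1
      rwa [show γ.1⁻¹ • (γ • (⟨x, hx⟩ : Ln N x y)).1 = x from inv_smul_smul γ.1 x] at this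
    · rintro _ ⟨e, he, rfl⟩
      have := hf.2 _ ⟨_, he, rfl⟩
      change γ.1 * e * γ.1⁻¹ * f = f * (γ.1 * e * γ.1⁻¹) at this
      change e.1 * _ = _ * e.1
      calc e.1 * (γ.1⁻¹ * f * γ.1⁻¹⁻¹) = γ.1⁻¹ * (γ.1 * e * γ.1⁻¹ * f) * γ.1 := by group
        _ = _ := by rw [this]; group
    · exact conj_eq_one_iff.1 (congrArg Subtype.val e)
  · obtain ⟨c, hc, e1, e2⟩ := h.trans_Ln hxy (hBL B) hB (G₀ := ⊤) (fun _ => le_top) u.2
    obtain ⟨c', hc', e1', e2'⟩ := h.trans_Ln hxy (hBL B) hB (G₀ := ⊤) (fun _ => le_top) v.2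
    have m : ∀ c : G, (∀ v ∈ Ln N x y, c • v ∈ Ln N x y) → c ∈ Γ := fun c hc v =>
      h.inv_Ln hxy hxy hx hy (hc x hx) (hc y hy)
    refine ⟨⟨c', m c' e2'⟩ * ⟨c, m c e2⟩⁻¹, Subtype.ext ?_, fun w hw => Subtype.ext ?_⟩
    · change (c' * c⁻¹) • u.1 = v.1
      rw [← e1, mul_smul, inv_smul_smul, e1']
    · rw [hρ]
      exact mul_inv_eq_iff_eq_mul.2 ((cz _).mul_mem hc'.2 ((cz _).inv_mem hc.2) _ ⟨w, hw, rfl⟩).symm

theorem exists_inv (hxy : x ≠ y) : ∃ t : G, t * t = 1 ∧ t • x = y := by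
  obtain ⟨g, g1, g2⟩ := h.two hxy hxy.symm
  have : 2 ∣ orderOf g := by
    by_contra ho
    obtain ⟨k, hk⟩ := Nat.odd_iff.2 (Nat.two_dvd_ne_zero.1 ho)
    have : (g ^ 2) ^ k • y = y := pow_mem (show g ^ 2 ∈ stabilizer G y by
      rw [mem_stabilizer_iff, sq, mul_smul, g2, g1]) k
    rw [← g1, ← mul_smul, ← pow_mul, ← pow_succ, ← hk, pow_orderOf_eq_one, one_smul, g1] at this
    exact hxy this
  obtain ⟨t, ht⟩ := exists_prime_orderOf_dvd_card' (G := G) 2 (this.trans (orderOf_dvd_natCard g))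
  obtain ⟨a, ha⟩ := not_forall.1 (mt (h.faith t) (ne_one ht))
  obtain ⟨c, rfl, rfl⟩ := h.two (Ne.symm ha) hxy
  refine ⟨c * t * c⁻¹, ?_, by rw [mul_smul, mul_smul, inv_smul_smul]⟩
  calc c * t * c⁻¹ * (c * t * c⁻¹) = c * (t * t) * c⁻¹ := by group
    _ = 1 := by rw [sq_two ht]; group

/-- lines have two points -/
theorem two_pts (hxy : x ≠ y) (hz : z ∈ Ln N x y) : z = x ∨ z = y := by
  by_contra hc
  push Not at hc
  obtain ⟨hzx, hzy⟩ := hc
  obtain ⟨t, tt, ty⟩ := h.exists_inv hzy.symm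
  have t2 : ∀ v : X, t • t • v = v := fun v => by rw [← mul_smul, tt, one_smul]
  -- the third point of the line through `v`, `t v` is fixed
  have third : ∀ v, t • v ≠ v → ∃ u ∈ Ln N v (t • v), u ≠ v ∧ u ≠ t • v ∧ t • u = u := fun v hv => by
    obtain ⟨g, g1, g2⟩ := h.two hxy hv.symm
    have hu := h.Ln_smul g hz
    rw [g1, g2] at hu
    have n1 : g • z ≠ v := fun e => hzx (MulAction.injective g (e.trans g1.symm))
    have n2 : g • z ≠ t • v := fun e => hzy (MulAction.injective g (e.trans g2.symm))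
    refine ⟨g • z, hu, n1, n2, h.le_three hv.symm ?_ hu (fun e => n2 (by rw [← e, t2]))
      (fun e => n1 (MulAction.injective t e)) n1 n2⟩
    have := h.Ln_smul t hu
    rwa [t2, ← h.Ln_symm hv.symm] at this
  have tx : t • x = x := by
    obtain ⟨u, hu, n1, n2, e⟩ := third y (ty ▸ hzy)
    rw [ty] at hu n2
    rwa [h.le_three hzy.symm hu (h.Ln_eq hxy (right_mem x y) hz hzy.symm ▸ h.left_mem x y) n1 n2
      hxy hzx.symm] at e
  have only : ∀ v, t • v = v → v = x := fun v hv => by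
    by_contra hvx
    obtain ⟨f, hf, a, ha, hax, rfl⟩ := h.orb hxy hvx
    have hta : t • a ∈ Ln N x y := (h.inv_Ln hxy hxy (h.left_mem x y) (right_mem x y)
      (tx.symm ▸ h.left_mem x y) (ty.symm ▸ hz)).1 ha
    have e : ((t * f * t⁻¹)⁻¹ * f) • a = t • a := by
      rw [mul_smul, inv_smul_eq_iff, mul_smul, mul_smul, inv_smul_smul, hv]
    rw [h.uniq hxy (mul_mem (inv_mem (cm (h.F_nz tx) hf)) hf) ha hax (e ▸ hta), one_smul] at e
    by_cases hay : a = y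
    · exact hzy (by rw [← ty, ← hay, ← e])
    · rw [h.le_three hxy ha hz hax hay hzx hzy, ← ty, t2] at e
      exact hzy (ty ▸ e)
  have onL : ∀ v, v ≠ x → t • v ∈ Ln N x v ∧ t • v ≠ x ∧ t • v ≠ v := fun v hv => by
    have n : t • v ≠ v := fun e => hv (only v e)
    obtain ⟨u, hu, -, -, e⟩ := third v n
    rw [only u e] at hu
    exact ⟨h.Ln_eq n.symm hu (h.left_mem _ _) hv.symm ▸ right_mem _ _,
      fun e => hv (MulAction.injective t (e.trans tx.symm)), n⟩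
  obtain ⟨u, hu, u1⟩ := h.exists_A hxy.symm
  have ux : u • x = x := hu.2
  have : t * u = u * t := by
    rw [← mul_inv_eq_one]
    refine h.faith _ fun v => ?_
    obtain ⟨v, rfl⟩ := MulAction.surjective (u * t) v
    simp only []
    rw [mul_smul (t * u), inv_smul_smul, mul_smul, mul_smul]
    by_cases hv : v = x
    · rw [hv, ux, tx, ux]
    have hv' : u • v ≠ x := fun e => hv (MulAction.injective u (e.trans ux.symm))
    obtain ⟨a1, a2, a3⟩ := onL v hv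
    obtain ⟨b1, b2, b3⟩ := onL _ hv'
    have := h.Ln_smul u a1
    rw [ux] at this
    exact h.le_three hv'.symm b1 this b2 b3 (fun e => a2 (MulAction.injective u (e.trans ux.symm)))
      fun e => a3 (MulAction.injective u e)
  exact hzy (ty ▸ h.cent u1 hu.1 this)

end Sv

end CL.OT
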